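import Cfsg.Agent.Lib.Helper17.QuotP
import Cfsg.Agent.Lib.Helper4.Subnormal

set_option autoImplicit false

namespace Cfsg.Agent.Lib.Helper17

open Cfsg

variable {G : Type*} [Group G]

theorem mem_normalizer_nclIn [Finite G] {J K : Subgroup G} {g : G}
    (hJ : g ∈ Subgroup.normalizer (J : Set G)) (hK : g ∈ Subgroup.normalizer (K : Set G)) :
    g ∈ Subgroup.normalizer (nclIn J K : Set G) := by
  have key : ∀ h : G, h ∈ Subgroup.normalizer (J : Set G) → h ∈ Subgroup.normalizer (K : Set G) →
      nclIn J K ≤ (nclIn J K).map (MulAut.conj h).toMonoidHom := by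
    intro h hJ hK
    apply nclIn_le
    · conv_lhs => rw [← map_conj_eq_of_mem_normalizer hJ]
      exact Subgroup.map_mono (le_nclIn J K)
    · rw [normalizer_map_conj]
      conv_lhs => rw [← map_conj_eq_of_mem_normalizer hK]
      exact Subgroup.map_mono (le_normalizer_nclIn J K)
  have h1 := key g⁻¹ (inv_mem hJ) (inv_mem hK)
  rw [le_map_conj_iff, inv_inv] at h1
  exact mem_normalizer_iff_map_conj.mpr (map_conj_eq_of_le h1)

/-- a subnormal subgroup that is its own normal closure in `K` is `K` -/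
theorem nclIn_lt_of_isSubnormal {J K : Subgroup G} (hJ : J.IsSubnormal) (hJK : J ≤ K)
    (hne : J ≠ K) : nclIn J K < K := by
  have h1 : (J.subgroupOf K).IsSubnormal := hJ.subgroupOf
  have h2 : J.subgroupOf K ≠ ⊤ := by
    intro h
    exact hne (le_antisymm hJK (Subgroup.subgroupOf_eq_top.mp h))
  obtain ⟨K', hK'n, hle, hlt⟩ := h1.exists_normal_and_le_and_lt_top_of_ne h2
  have h3 : nclIn J K ≤ K'.map K.subtype := by
    apply nclIn_le
    · intro x hx
      exact ⟨⟨x, hJK hx⟩, hle (by simpa [Subgroup.mem_subgroupOf] using hx), rfl⟩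
    · exact top_le_normalizer_iff_map_subtype.mp (top_le_normalizer_of_normal hK'n ⊤)
  refine lt_of_le_of_lt h3 ?_
  constructor
  · exact Subgroup.map_subtype_le K'
  · intro h
    apply hlt.not_ge
    intro x _
    obtain ⟨y, hy, e⟩ := h x.2
    have : y = x := Subtype.ext e
    rwa [← this]

/-- in a group where `S` lies in a unique maximal subgroup `M`, an `S`-invariant subnormal subgroup
inside `M` lies in the core of `M` -/
theorem le_normalCore_of_isSubnormal [Finite G] {S M J : Subgroup G}
    (hle : ∀ X : Subgroup G, S ≤ X → X ≠ ⊤ → X ≤ M) (hJ : J.IsSubnormal)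
    (hSJ : S ≤ Subgroup.normalizer (J : Set G)) (hJM : J ≤ M) : J ≤ M.normalCore := by
  set K := Subgroup.normalClosure (J : Set G) with hK
  have hKn : K.Normal := Subgroup.normalClosure_normal
  have hJK : J ≤ K := Subgroup.subset_normalClosure
  by_cases hKM : K ≤ M
  · exact hJK.trans (Subgroup.normal_le_normalCore.mpr hKM)
  · exfalso
    have htop : K ⊔ S = ⊤ := by
      by_contra h
      exact hKM (le_sup_left.trans (hle _ le_sup_right h))
    have hne : J ≠ K := fun h => hKM (h ▸ hJM)
    have hlt := nclIn_lt_of_isSubnormal hJ hJK hne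
    have hn : (nclIn J K).Normal := by
      apply normal_of_top_le_normalizer
      rw [← htop]
      refine sup_le (le_normalizer_nclIn J K) ?_
      intro s hs
      exact mem_normalizer_nclIn (hSJ hs) (top_le_normalizer_of_normal hKn S hs)
    have h1 : K ≤ nclIn J K :=
      Subgroup.normalClosure_le_normal (show (J : Set G) ⊆ nclIn J K from le_nclIn J K)
    exact hlt.not_ge h1

theorem isSubnormal_map_conj {N : Subgroup G} (hN : N.IsSubnormal) (g : G) :
    (N.map (MulAut.conj g).toMonoidHom).IsSubnormal :=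
  hN.map (MulAut.conj g).surjective

/-- every subnormal subgroup inside the unique maximal subgroup over `S` lies in its core -/
theorem le_normalCore_of_isSubnormal' {G : Type*} [Group G] [Finite G] {S M N : Subgroup G}
    (hle : ∀ X : Subgroup G, S ≤ X → X ≠ ⊤ → X ≤ M) (hSM : S ≤ M) (hN : N.IsSubnormal)
    (hNM : N ≤ M) : N ≤ M.normalCore := by
  set J := sSup {X : Subgroup G | ∃ s ∈ S, X = N.map (MulAut.conj s).toMonoidHom} with hJ
  have h1 : J.IsSubnormal := by
    apply Cfsg.Agent.Lib.Helper4.isSubnormal_sSup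
    rintro _ ⟨s, _, rfl⟩
    exact isSubnormal_map_conj hN s
  have h2 : J ≤ M := by
    apply sSup_le
    rintro _ ⟨s, hs, rfl⟩
    exact map_conj_le_of_le_of_mem hNM (hSM hs)
  have h3 : S ≤ Subgroup.normalizer (J : Set G) := by
    apply le_normalizer_of_conj_mem
    intro t ht x hx
    have h4 : J ≤ J.comap (MulAut.conj t).toMonoidHom := by
      apply sSup_le
      rintro _ ⟨s, hs, rfl⟩
      rw [← Subgroup.map_le_iff_le_comap, map_conj_map_conj]
      exact le_sSup ⟨t * s, S.mul_mem ht hs, rfl⟩
    exact h4 hx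
  refine le_trans ?_ (le_normalCore_of_isSubnormal hle h1 h3 h2)
  exact le_sSup ⟨1, S.one_mem, by rw [map_conj_one]⟩

theorem isMinimalOver_of_isPMinimal [Finite G] {p : ℕ} [Fact p.Prime] (hP : IsPMinimal p G)
    (S : Sylow p G) : IsMinimalOver (S : Subgroup G) := by
  obtain ⟨hnn, M, ⟨hMc, hSM⟩, hMu⟩ := hP S
  refine ⟨?_, M, ⟨hMc, hSM⟩, hMu⟩
  by_contra hne
  have hle : ∀ X : Subgroup G, (S : Subgroup G) ≤ X → X ≠ ⊤ → X ≤ M :=
    fun X h1 h2 => le_of_unique_coatom hMu h1 h2
  set K := Subgroup.normalClosure ((S : Subgroup G) : Set G) with hK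
  have hKn : K.Normal := Subgroup.normalClosure_normal
  have hSK : (S : Subgroup G) ≤ K := Subgroup.subset_normalClosure
  have h1 : K ≤ M := hle K hSK hne
  have h2 : Subgroup.normalizer ((S : Subgroup G) : Set G) ≤ M :=
    hle _ Subgroup.le_normalizer (fun h => hnn (Subgroup.normalizer_eq_top_iff.mp h))
  apply hMc.1
  rw [eq_top_iff]
  intro x _
  obtain ⟨n, hn, hx⟩ := frattini_arg ((isSyl_top S).of_le hSK le_top)
    (top_le_normalizer_of_normal hKn ⊤) (Subgroup.mem_top x)
  have := M.mul_mem (h1 hn) (h2 hx)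
  simpa using this

end Cfsg.Agent.Lib.Helper17
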